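import Mathlib

/-!
# The operator `T(P) = L·P' - M·P` (helper library for S17241–S17246)

For marked points `r : Fin m → k` with multiplicities `a`, put `E = ∏ (X - r_j)^{a_j}`,
`L = ∏ (X - r_j)`, `M = ∑ a_j ∏_{l ≠ j} (X - r_l)` (so that `L·E' = M·E`), and
`T(P) = L·P' - M·P = E·L·(P/E)'`.
-/

open Polynomial Finset

namespace Groth.Agent.Lib.Helper25.EffDiv

variable {k : Type*} [Field k] {m : ℕ} (r : Fin m → k) (a : Fin m → ℕ)

noncomputable def Lp : k[X] := ∏ j, (X - C (r j))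
noncomputable def Ep : k[X] := ∏ j, (X - C (r j)) ^ (a j)
noncomputable def Dp : k[X] := ∏ j, (X - C (r j)) ^ (a j + 1)
noncomputable def Di (i : Fin m) : k[X] := ∏ j ∈ univ.erase i, (X - C (r j)) ^ (a j + 1)
noncomputable def Ei (i : Fin m) : k[X] := ∏ j ∈ univ.erase i, (X - C (r j)) ^ (a j)
noncomputable def Li (i : Fin m) : k[X] := ∏ j ∈ univ.erase i, (X - C (r j))
noncomputable def Mp : k[X] := ∑ j, C (a j : k) * ∏ l ∈ univ.erase j, (X - C (r l))

noncomputable def T : k[X] →ₗ[k] k[X] :=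
  LinearMap.mulLeft k (Lp r) ∘ₗ derivative - LinearMap.mulLeft k (Mp r a)

theorem T_apply (P : k[X]) : T r a P = Lp r * derivative P - Mp r a * P := rfl

theorem Dp_eq : Dp r a = Lp r * Ep r a := by
  simp only [Dp, Lp, Ep, ← prod_mul_distrib, pow_succ']

theorem E_eq (i : Fin m) : Ep r a = (X - C (r i)) ^ (a i) * Ei r a i :=
  (mul_prod_erase univ (fun j => (X - C (r j)) ^ (a j)) (mem_univ i)).symm

theorem L_eq (i : Fin m) : Lp r = (X - C (r i)) * Li r i :=
  (mul_prod_erase univ (fun j => (X - C (r j))) (mem_univ i)).symm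

theorem Di_eq (i : Fin m) : Di r a i = Li r i * Ei r a i := by
  simp only [Di, Li, Ei, ← prod_mul_distrib, pow_succ']

theorem Ep_ne_zero : Ep r a ≠ 0 :=
  prod_ne_zero_iff.2 fun j _ => pow_ne_zero _ (X_sub_C_ne_zero _)

theorem Lp_ne_zero : Lp r ≠ 0 :=
  prod_ne_zero_iff.2 fun j _ => X_sub_C_ne_zero _

theorem Dp_ne_zero : Dp r a ≠ 0 :=
  prod_ne_zero_iff.2 fun j _ => pow_ne_zero _ (X_sub_C_ne_zero _)

theorem L_mul_derivative_E (ha : ∀ j, 1 ≤ a j) :
    Lp r * derivative (Ep r a) = Mp r a * Ep r a := by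
  classical
  rw [Ep, derivative_prod_finset, mul_sum, Mp, sum_mul]
  refine sum_congr rfl fun j _ => ?_
  rw [derivative_X_sub_C_pow, Lp, ← mul_prod_erase univ (fun l => X - C (r l)) (mem_univ j),
    ← mul_prod_erase univ (fun l => (X - C (r l)) ^ a l) (mem_univ j)]
  obtain ⟨c, hc⟩ : ∃ c, a j = c + 1 := ⟨a j - 1, by have := ha j; omega⟩
  rw [hc, Nat.add_sub_cancel]
  ring

theorem T_mul_E (ha : ∀ j, 1 ≤ a j) (P : k[X]) :
    T r a P * Ep r a = Lp r * (derivative P * Ep r a - P * derivative (Ep r a)) := by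
  rw [T_apply]
  linear_combination P * L_mul_derivative_E r a ha

theorem T_E (ha : ∀ j, 1 ≤ a j) : T r a (Ep r a) = 0 := by
  have h := T_mul_E r a ha (Ep r a)
  rw [show derivative (Ep r a) * Ep r a - Ep r a * derivative (Ep r a) = 0 by ring, mul_zero] at h
  exact (mul_eq_zero.1 h).resolve_right (Ep_ne_zero r a)

/-- `T(G·E) = D·G'`. -/
theorem T_GE (ha : ∀ j, 1 ≤ a j) (G : k[X]) :
    T r a (G * Ep r a) = Dp r a * derivative G := by
  apply mul_right_cancel₀ (Ep_ne_zero r a)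
  rw [T_mul_E r a ha, derivative_mul, Dp_eq]
  ring

/-- `T(u·E_i) = D_i·((X - r_i)u' - a_i u)`. -/
theorem T_uEi (ha : ∀ j, 1 ≤ a j) (i : Fin m) (u : k[X]) :
    T r a (u * Ei r a i) = Di r a i * ((X - C (r i)) * derivative u - C (a i : k) * u) := by
  apply mul_right_cancel₀ (Ep_ne_zero r a)
  obtain ⟨c, hc⟩ : ∃ c, a i = c + 1 := ⟨a i - 1, by have := ha i; omega⟩
  have hE' : derivative (Ep r a) = C ((c + 1 : ℕ) : k) * (X - C (r i)) ^ c * Ei r a i
      + (X - C (r i)) ^ (c + 1) * derivative (Ei r a i) := by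
    rw [E_eq r a i, derivative_mul, derivative_X_sub_C_pow, hc, Nat.add_sub_cancel]
  rw [T_mul_E r a ha, derivative_mul, hE', Di_eq, L_eq r i, E_eq r a i, hc]
  push_cast
  ring


/-! ### Local analysis of `T` -/

theorem xd_pow_mul (q : k) (s : ℕ) (R : k[X]) :
    (X - C q) * derivative ((X - C q) ^ s * R) =
      (X - C q) ^ s * (C (s : k) * R + (X - C q) * derivative R) := by
  rw [derivative_mul, derivative_X_sub_C_pow]
  rcases Nat.eq_zero_or_pos s with rfl | hs
  · simp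
  · obtain ⟨t, rfl⟩ : ∃ t, s = t + 1 := ⟨s - 1, by omega⟩
    rw [Nat.add_sub_cancel]
    ring

theorem ord_decomp {P : k[X]} (hP : P ≠ 0) (q : k) :
    ∃ (s : ℕ) (R : k[X]), P = (X - C q) ^ s * R ∧ R.eval q ≠ 0 := by
  obtain ⟨R, h1, h2⟩ := exists_eq_pow_rootMultiplicity_mul_and_not_dvd P hP q
  exact ⟨_, R, h1, fun h => h2 (dvd_iff_isRoot.2 h)⟩

theorem pow_le_natDegree {P : k[X]} (hP : P ≠ 0) {q : k} {s : ℕ} (h : (X - C q) ^ s ∣ P) :
    s ≤ P.natDegree := by
  have := natDegree_le_of_dvd h hP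
  rwa [natDegree_pow, natDegree_X_sub_C, mul_one] at this

theorem le_of_pow_dvd_pow_mul {q : k} {n s : ℕ} {B : k[X]} (hB : B.eval q ≠ 0)
    (h : (X - C q) ^ n ∣ (X - C q) ^ s * B) : n ≤ s := by
  by_contra hns
  push Not at hns
  have h2 : (X - C q) ^ s * (X - C q) ∣ (X - C q) ^ s * B := by
    rw [← pow_succ]; exact (pow_dvd_pow _ hns).trans h
  rw [mul_dvd_mul_iff_left (pow_ne_zero _ (X_sub_C_ne_zero q))] at h2
  exact hB (dvd_iff_isRoot.1 h2)

theorem eval_Lp_ne_zero {q : k} (hq : ∀ j, q ≠ r j) : (Lp r).eval q ≠ 0 := by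
  rw [Lp, eval_prod]
  exact prod_ne_zero_iff.2 fun j _ => by simpa [sub_eq_zero] using hq j

theorem eval_Ep_ne_zero {q : k} (hq : ∀ j, q ≠ r j) : (Ep r a).eval q ≠ 0 := by
  rw [Ep, eval_prod]
  exact prod_ne_zero_iff.2 fun j _ => by
    rw [eval_pow]; exact pow_ne_zero _ (by simpa [sub_eq_zero] using hq j)

theorem eval_Li_ne_zero (hr : Function.Injective r) (i : Fin m) : (Li r i).eval (r i) ≠ 0 := by
  rw [Li, eval_prod]
  refine prod_ne_zero_iff.2 fun j hj => ?_
  have : j ≠ i := (mem_erase.1 hj).1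
  simpa [sub_eq_zero] using fun h => this (hr h.symm)

theorem eval_Ei_ne_zero (hr : Function.Injective r) (i : Fin m) : (Ei r a i).eval (r i) ≠ 0 := by
  rw [Ei, eval_prod]
  refine prod_ne_zero_iff.2 fun j hj => ?_
  rw [eval_pow]
  refine pow_ne_zero _ ?_
  have : j ≠ i := (mem_erase.1 hj).1
  simpa [sub_eq_zero] using fun h => this (hr h.symm)

theorem eval_Mp_marked (i : Fin m) : (Mp r a).eval (r i) = (a i : k) * (Li r i).eval (r i) := by
  classical
  rw [Mp, eval_finsetSum, sum_eq_single i]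
  · simp [Li, eval_prod]
  · intro j _ hji
    rw [eval_mul, eval_prod, prod_eq_zero (i := i) (mem_erase.2 ⟨fun h => hji h.symm, mem_univ i⟩)]
    · simp
    · simp
  · simp

/-- At an unmarked point `q`, `T` lowers the order of vanishing by exactly one. -/
theorem T_unmarked [CharZero k] {q : k} (hq : ∀ j, q ≠ r j) {s : ℕ} (hs : 1 ≤ s) {R : k[X]}
    (hR : R.eval q ≠ 0) :
    ∃ B : k[X], T r a ((X - C q) ^ s * R) = (X - C q) ^ (s - 1) * B ∧ B.eval q ≠ 0 := by
  obtain ⟨t, rfl⟩ : ∃ t, s = t + 1 := ⟨s - 1, by omega⟩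
  refine ⟨Lp r * (C ((t + 1 : ℕ) : k) * R + (X - C q) * derivative R) - Mp r a * (X - C q) * R,
    ?_, ?_⟩
  · rw [T_apply, derivative_mul, derivative_X_sub_C_pow, Nat.add_sub_cancel]
    ring
  · simp only [eval_sub, eval_mul, eval_add, eval_C, eval_X, sub_self, zero_mul, add_zero, mul_zero,
      sub_zero]
    refine mul_ne_zero (eval_Lp_ne_zero r hq) (mul_ne_zero ?_ hR)
    exact_mod_cast Nat.succ_ne_zero t

/-- At a marked point `r_i`, `T` preserves the order of vanishing `s` when `s ≠ a_i`. -/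
theorem T_marked [CharZero k] (hr : Function.Injective r) (i : Fin m) {s : ℕ} (hs : s ≠ a i)
    {R : k[X]} (hR : R.eval (r i) ≠ 0) :
    ∃ B : k[X], T r a ((X - C (r i)) ^ s * R) = (X - C (r i)) ^ s * B ∧ B.eval (r i) ≠ 0 := by
  refine ⟨Li r i * (C (s : k) * R + (X - C (r i)) * derivative R) - Mp r a * R, ?_, ?_⟩
  · rw [T_apply, L_eq r i, mul_comm (X - C (r i)) (Li r i), mul_assoc, xd_pow_mul]
    ring
  · simp only [eval_sub, eval_mul, eval_add, eval_C, eval_X, sub_self, zero_mul, add_zero]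
    rw [eval_Mp_marked]
    have h1 := eval_Li_ne_zero r hr i
    have h2 : (s : k) - a i ≠ 0 := by
      rw [sub_ne_zero]; exact_mod_cast hs
    have : (Li r i).eval (r i) * ((s : k) * R.eval (r i)) - (a i : k) * (Li r i).eval (r i) * R.eval (r i)
        = (Li r i).eval (r i) * R.eval (r i) * ((s : k) - a i) := by ring
    rw [this]
    exact mul_ne_zero (mul_ne_zero h1 hR) h2


/-! ### Degrees -/

theorem Ep_monic : (Ep r a).Monic :=
  monic_prod_of_monic _ _ fun j _ => (monic_X_sub_C _).pow _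

theorem Lp_monic : (Lp r).Monic :=
  monic_prod_of_monic _ _ fun j _ => monic_X_sub_C _

theorem natDegree_Ep : (Ep r a).natDegree = ∑ j, a j := by
  rw [Ep, natDegree_prod_of_monic _ _ fun j _ => (monic_X_sub_C _).pow _]
  refine sum_congr rfl fun j _ => ?_
  rw [(monic_X_sub_C _).natDegree_pow, natDegree_X_sub_C, mul_one]

theorem natDegree_Lp : (Lp r).natDegree = m := by
  rw [Lp, natDegree_prod_of_monic _ _ fun j _ => monic_X_sub_C _]
  simp

theorem natDegree_Ei (i : Fin m) : (Ei r a i).natDegree = ∑ j ∈ univ.erase i, a j := by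
  rw [Ei, natDegree_prod_of_monic _ _ fun j _ => (monic_X_sub_C _).pow _]
  refine sum_congr rfl fun j _ => ?_
  rw [(monic_X_sub_C _).natDegree_pow, natDegree_X_sub_C, mul_one]

theorem natDegree_Dp : (Dp r a).natDegree = ∑ j, (a j + 1) := by
  rw [Dp, natDegree_prod_of_monic _ _ fun j _ => (monic_X_sub_C _).pow _]
  refine sum_congr rfl fun j _ => ?_
  rw [(monic_X_sub_C _).natDegree_pow, natDegree_X_sub_C, mul_one]

theorem natDegree_Di (i : Fin m) : (Di r a i).natDegree = ∑ j ∈ univ.erase i, (a j + 1) := by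
  rw [Di, natDegree_prod_of_monic _ _ fun j _ => (monic_X_sub_C _).pow _]
  refine sum_congr rfl fun j _ => ?_
  rw [(monic_X_sub_C _).natDegree_pow, natDegree_X_sub_C, mul_one]

theorem Mp_coeff : (Mp r a).natDegree ≤ m - 1 ∧ (Mp r a).coeff (m - 1) = ((∑ j, a j : ℕ) : k) := by
  have hmon : ∀ j : Fin m, (∏ l ∈ univ.erase j, (X - C (r l))).Monic :=
    fun j => monic_prod_of_monic _ _ fun l _ => monic_X_sub_C _
  have hdeg : ∀ j : Fin m, (∏ l ∈ univ.erase j, (X - C (r l))).natDegree = m - 1 := by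
    intro j
    rw [natDegree_prod_of_monic _ _ fun l _ => monic_X_sub_C _]
    simp [card_erase_of_mem (mem_univ j)]
  constructor
  · rw [Mp]
    refine natDegree_sum_le_of_forall_le _ _ fun j _ => ?_
    exact (natDegree_C_mul_le _ _).trans (hdeg j).le
  · rw [Mp, finsetSum_coeff]
    push_cast
    refine sum_congr rfl fun j _ => ?_
    rw [coeff_C_mul, ← hdeg j, (hmon j).coeff_natDegree, mul_one]

/-! ### The kernel of `T` and the adjustment lemmas -/

theorem exists_unmarked [CharZero k] : ∃ q : k, ∀ j, q ≠ r j := by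
  classical
  have : Infinite k := Infinite.of_injective _ Nat.cast_injective
  obtain ⟨q, hq⟩ := Infinite.exists_notMem_finset (univ.image r)
  exact ⟨q, fun j h => hq (h ▸ mem_image_of_mem r (mem_univ j))⟩

theorem T_CE (ha : ∀ j, 1 ≤ a j) (c : k) : T r a (C c * Ep r a) = 0 := by
  rw [← smul_eq_C_mul, map_smul, T_E r a ha, smul_zero]

theorem T_sub_CE (ha : ∀ j, 1 ≤ a j) (P : k[X]) (c : k) : T r a (P - C c * Ep r a) = T r a P := by
  rw [map_sub, T_CE r a ha, sub_zero]

theorem natDegree_sub_CE_le (P : k[X]) (c : k) :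
    (P - C c * Ep r a).natDegree ≤ max P.natDegree (Ep r a).natDegree :=
  natDegree_sub_le_of_le le_rfl (natDegree_C_mul_le _ _)

/-- Adjusting `P` by a multiple of `E` at an unmarked point. -/
theorem adjust_unmarked [CharZero k] (ha : ∀ j, 1 ≤ a j) {q : k} (hq : ∀ j, q ≠ r j) (P : k[X])
    {n : ℕ} (hn : (X - C q) ^ n ∣ T r a P) :
    ∃ Q : k[X], T r a Q = T r a P ∧ (X - C q) ^ (n + 1) ∣ Q ∧
      Q.natDegree ≤ max P.natDegree (Ep r a).natDegree := by
  set c := P.eval q / (Ep r a).eval q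
  refine ⟨P - C c * Ep r a, T_sub_CE r a ha P c, ?_, natDegree_sub_CE_le r a P c⟩
  set Q := P - C c * Ep r a with hQdef
  have hQq : Q.eval q = 0 := by
    simp only [Q, eval_sub, eval_mul, eval_C, c]
    rw [div_mul_cancel₀ _ (eval_Ep_ne_zero r a hq), sub_self]
  by_cases hQ : Q = 0
  · rw [hQ]; exact dvd_zero _
  obtain ⟨s, R, hQR, hR⟩ := ord_decomp hQ q
  have hs : 1 ≤ s := by
    by_contra h0
    have : s = 0 := by omega
    subst this
    rw [pow_zero, one_mul] at hQR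
    exact hR (hQR ▸ hQq)
  obtain ⟨B, hB, hBq⟩ := T_unmarked r a hq hs hR
  rw [← T_sub_CE r a ha P c, ← hQdef, hQR, hB] at hn
  have := le_of_pow_dvd_pow_mul hBq hn
  rw [hQR]
  exact (pow_dvd_pow _ (by omega)).trans (dvd_mul_right _ _)

theorem T_ker [CharZero k] (ha : ∀ j, 1 ≤ a j) {P : k[X]} (h : T r a P = 0) :
    ∃ c : k, P = C c * Ep r a := by
  obtain ⟨q, hq⟩ := exists_unmarked r
  set c := P.eval q / (Ep r a).eval q
  refine ⟨c, ?_⟩
  rw [← sub_eq_zero]
  set Q := P - C c * Ep r a with hQdef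
  have hQq : Q.eval q = 0 := by
    simp only [Q, eval_sub, eval_mul, eval_C, c]
    rw [div_mul_cancel₀ _ (eval_Ep_ne_zero r a hq), sub_self]
  by_contra hQ
  obtain ⟨s, R, hQR, hR⟩ := ord_decomp hQ q
  have hs : 1 ≤ s := by
    by_contra h0
    have : s = 0 := by omega
    subst this
    rw [pow_zero, one_mul] at hQR
    exact hR (hQR ▸ hQq)
  obtain ⟨B, hB, hBq⟩ := T_unmarked r a hq hs hR
  have h2 : T r a Q = 0 := by rw [hQdef, T_sub_CE r a ha P c, h]
  rw [hQR, hB] at h2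
  rcases mul_eq_zero.1 h2 with h3 | h3
  · exact X_sub_C_ne_zero q (pow_eq_zero_iff'.1 h3).1
  · exact hBq (by rw [h3, eval_zero])

theorem T_eq_zero_of_unmarked [CharZero k] (ha : ∀ j, 1 ≤ a j) {q : k} (hq : ∀ j, q ≠ r j)
    {P : k[X]} {K : ℕ} (hP : P.natDegree ≤ K) (hE : (Ep r a).natDegree ≤ K)
    (h : (X - C q) ^ K ∣ T r a P) : T r a P = 0 := by
  obtain ⟨Q, hQ, hdvd, hdeg⟩ := adjust_unmarked r a ha hq P h
  rw [← hQ]
  by_cases hQ0 : Q = 0
  · rw [hQ0, map_zero]
  · have := pow_le_natDegree hQ0 hdvd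
    have := hdeg.trans (max_le hP hE)
    omega

/-- Adjusting `P` by a multiple of `E` at a marked point. -/
theorem adjust_marked (ha : ∀ j, 1 ≤ a j) (hr : Function.Injective r) (i : Fin m) (P : k[X]) :
    ∃ Q : k[X], T r a Q = T r a P ∧ Q.natDegree ≤ max P.natDegree (Ep r a).natDegree ∧
      (Q = 0 ∨ ∃ (s : ℕ) (R : k[X]), s ≠ a i ∧ R.eval (r i) ≠ 0 ∧ Q = (X - C (r i)) ^ s * R) := by
  by_cases hP : P = 0
  · exact ⟨P, rfl, le_max_left _ _, Or.inl hP⟩
  obtain ⟨s, R, hPR, hR⟩ := ord_decomp hP (r i)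
  by_cases hs : s ≠ a i
  · exact ⟨P, rfl, le_max_left _ _, Or.inr ⟨s, R, hs, hR, hPR⟩⟩
  push Not at hs
  set c := R.eval (r i) / (Ei r a i).eval (r i)
  refine ⟨P - C c * Ep r a, T_sub_CE r a ha P c, natDegree_sub_CE_le r a P c, ?_⟩
  set Q := P - C c * Ep r a with hQdef
  by_cases hQ : Q = 0
  · exact Or.inl hQ
  right
  obtain ⟨s', R', hQR', hR'⟩ := ord_decomp hQ (r i)
  refine ⟨s', R', ?_, hR', hQR'⟩
  have hW : Q = (X - C (r i)) ^ (a i) * (R - C c * Ei r a i) := by
    rw [hQdef, hPR, E_eq r a i, hs]; ring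
  have hWr : (X - C (r i)) ∣ (R - C c * Ei r a i) := by
    rw [dvd_iff_isRoot, IsRoot, eval_sub, eval_mul, eval_C]
    simp only [c]
    rw [div_mul_cancel₀ _ (eval_Ei_ne_zero r a hr i), sub_self]
  have h1 : (X - C (r i)) ^ (a i + 1) ∣ (X - C (r i)) ^ s' * R' := by
    rw [← hQR', hW, pow_succ]
    exact mul_dvd_mul_left _ hWr
  have := le_of_pow_dvd_pow_mul hR' h1
  omega

theorem dvd_of_marked [CharZero k] (ha : ∀ j, 1 ≤ a j) (hr : Function.Injective r) (i : Fin m)
    (P : k[X]) {n : ℕ} (hn : (X - C (r i)) ^ n ∣ T r a P) :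
    ∃ Q : k[X], T r a Q = T r a P ∧ Q.natDegree ≤ max P.natDegree (Ep r a).natDegree ∧
      (X - C (r i)) ^ n ∣ Q := by
  obtain ⟨Q, hQ, hdeg, h⟩ := adjust_marked r a ha hr i P
  refine ⟨Q, hQ, hdeg, ?_⟩
  rcases h with h | ⟨s, R, hs, hR, hQR⟩
  · rw [h]; exact dvd_zero _
  · obtain ⟨B, hB, hBr⟩ := T_marked r a hr i hs hR
    rw [← hQ, hQR, hB] at hn
    rw [hQR]
    exact (pow_dvd_pow _ (le_of_pow_dvd_pow_mul hBr hn)).trans (dvd_mul_right _ _)

theorem T_eq_zero_of_marked [CharZero k] (ha : ∀ j, 1 ≤ a j) (hr : Function.Injective r)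
    (i : Fin m) {P : k[X]} {K : ℕ} (hP : P.natDegree ≤ K) (hE : (Ep r a).natDegree ≤ K)
    (h : (X - C (r i)) ^ (K + 1) ∣ T r a P) : T r a P = 0 := by
  obtain ⟨Q, hQ, hdeg, hdvd⟩ := dvd_of_marked r a ha hr i P h
  rw [← hQ]
  by_cases hQ0 : Q = 0
  · rw [hQ0, map_zero]
  · have := pow_le_natDegree hQ0 hdvd
    have := hdeg.trans (max_le hP hE)
    omega


/-! ### Behaviour at infinity -/

theorem Mp_of_m_eq_zero (hm : m = 0) : Mp r a = 0 := by
  subst hm; simp [Mp]

theorem T_coeff_top [CharZero k] {P : k[X]} (hP : P ≠ 0) (hn : P.natDegree ≠ ∑ j, a j) :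
    (T r a P).coeff (P.natDegree + m - 1) ≠ 0 := by
  set n := P.natDegree with hndef
  set A := ∑ j, a j
  have hL1 : (Lp r).coeff m = 1 := by
    have := (Lp_monic r).coeff_natDegree; rwa [natDegree_Lp] at this
  have h1 : (Lp r * derivative P).coeff (n + m - 1) = (n : k) * P.leadingCoeff := by
    rcases Nat.eq_zero_or_pos n with h0 | hpos
    · rw [derivative_of_natDegree_zero h0, mul_zero, coeff_zero, h0, Nat.cast_zero, zero_mul]
    · rw [show n + m - 1 = m + (n - 1) by omega,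
        coeff_mul_add_eq_of_natDegree_le (natDegree_Lp r).le (natDegree_derivative_le P),
        coeff_derivative, show n - 1 + 1 = n by omega, hL1, one_mul, leadingCoeff, ← hndef]
      rw [show ((n - 1 : ℕ) : k) + 1 = (n : k) by
        rw [← Nat.cast_succ, Nat.succ_eq_add_one, show n - 1 + 1 = n by omega]]
      ring
  have h2 : (Mp r a * P).coeff (n + m - 1) = (A : k) * P.leadingCoeff := by
    rcases Nat.eq_zero_or_pos m with h0 | hpos
    · have hA : A = 0 := by subst h0; simp [A]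
      rw [Mp_of_m_eq_zero r a h0, zero_mul, coeff_zero, hA, Nat.cast_zero, zero_mul]
    · rw [show n + m - 1 = (m - 1) + n by omega,
        coeff_mul_add_eq_of_natDegree_le (Mp_coeff r a).1 le_rfl, (Mp_coeff r a).2]
      rfl
  rw [T_apply, coeff_sub, h1, h2, ← sub_mul]
  refine mul_ne_zero ?_ (leadingCoeff_ne_zero.2 hP)
  rw [sub_ne_zero]
  exact_mod_cast hn

theorem T_natDegree_le (P : k[X]) : (T r a P).natDegree ≤ P.natDegree + m - 1 := by
  rw [T_apply]
  refine natDegree_sub_le_of_le ?_ ?_ |>.trans (max_le le_rfl le_rfl)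
  · rcases Nat.eq_zero_or_pos P.natDegree with h0 | hpos
    · rw [derivative_of_natDegree_zero h0, mul_zero, natDegree_zero]; exact Nat.zero_le _
    · refine natDegree_mul_le.trans ?_
      rw [natDegree_Lp]
      have := natDegree_derivative_le P
      omega
  · rcases Nat.eq_zero_or_pos m with h0 | hpos
    · rw [Mp_of_m_eq_zero r a h0, zero_mul, natDegree_zero]; exact Nat.zero_le _
    · refine natDegree_mul_le.trans ?_
      have := (Mp_coeff r a).1
      omega

theorem adjust_infty (ha : ∀ j, 1 ≤ a j) (P : k[X]) :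
    ∃ Q : k[X], T r a Q = T r a P ∧ Q.natDegree ≤ P.natDegree ∧
      (Q = 0 ∨ Q.natDegree ≠ ∑ j, a j) := by
  by_cases hP : P = 0 ∨ P.natDegree ≠ ∑ j, a j
  · exact ⟨P, rfl, le_rfl, hP⟩
  push Not at hP
  obtain ⟨hP0, hPn⟩ := hP
  refine ⟨P - C P.leadingCoeff * Ep r a, T_sub_CE r a ha _ _, ?_, ?_⟩
  · exact (natDegree_sub_CE_le r a _ _).trans (by rw [natDegree_Ep, ← hPn, max_self])
  · by_cases hQ : P - C P.leadingCoeff * Ep r a = 0
    · exact Or.inl hQ
    right
    have hlc : P.leadingCoeff ≠ 0 := leadingCoeff_ne_zero.2 hP0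
    have hdeg : P.degree = (C P.leadingCoeff * Ep r a).degree := by
      rw [degree_C_mul hlc, degree_eq_natDegree hP0, degree_eq_natDegree (Ep_ne_zero r a),
        natDegree_Ep, hPn]
    have hlc' : P.leadingCoeff = (C P.leadingCoeff * Ep r a).leadingCoeff := by
      rw [leadingCoeff_mul, leadingCoeff_C, (Ep_monic r a).leadingCoeff, mul_one]
    have := natDegree_lt_natDegree hQ (degree_sub_lt_left hdeg hP0 hlc')
    omega


theorem T_eq_zero_of_infty [CharZero k] (ha : ∀ j, 1 ≤ a j) {P : k[X]}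
    (h : (T r a P).degree < ((m - 1 : ℕ) : WithBot ℕ)) : T r a P = 0 := by
  obtain ⟨Q, hQ, -, hQ'⟩ := adjust_infty r a ha P
  rw [← hQ] at h ⊢
  by_cases h0 : Q = 0
  · rw [h0, map_zero]
  · have hne : Q.natDegree ≠ ∑ j, a j := hQ'.resolve_left h0
    exfalso
    have h1 := T_coeff_top r a h0 hne
    have h2 := le_degree_of_ne_zero h1
    have h3 : ((m - 1 : ℕ) : WithBot ℕ) ≤ ((Q.natDegree + m - 1 : ℕ) : WithBot ℕ) := by
      exact_mod_cast (by omega : m - 1 ≤ Q.natDegree + m - 1)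
    exact absurd (h3.trans h2) (not_le.2 h)

/-! ### Preimages under `T` -/

instance (n : ℕ) : FiniteDimensional k (degreeLT k n) :=
  LinearEquiv.finiteDimensional (degreeLTEquiv k n).symm

theorem finrank_degreeLT' (n : ℕ) : Module.finrank k (degreeLT k n) = n := by
  rw [(degreeLTEquiv k n).finrank_eq, Module.finrank_fin_fun]

theorem natDegree_lt_of_mem_degreeLT {n : ℕ} {g : k[X]} (hg : g ∈ degreeLT k n) (h0 : g ≠ 0) :
    g.natDegree < n :=
  (natDegree_lt_iff_degree_lt h0).2 (mem_degreeLT.1 hg)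

theorem mem_degreeLT_of_natDegree_lt {n : ℕ} {g : k[X]} (h : g.natDegree < n) :
    g ∈ degreeLT k n :=
  mem_degreeLT.2 ((degree_le_natDegree).trans_lt (by exact_mod_cast h))

theorem antideriv_exists [CharZero k] (g : k[X]) :
    ∃ G : k[X], derivative G = g ∧ G.natDegree ≤ g.natDegree + 1 := by
  refine ⟨∑ n ∈ range (g.natDegree + 1), C (g.coeff n / (n + 1)) * X ^ (n + 1), ?_, ?_⟩
  · rw [derivative_sum]
    conv_rhs => rw [g.as_sum_range_C_mul_X_pow]
    refine sum_congr rfl fun n _ => ?_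
    rw [derivative_C_mul_X_pow, Nat.add_sub_cancel]
    congr 2
    push_cast
    rw [div_mul_cancel₀ _ (Nat.cast_add_one_ne_zero n)]
  · refine natDegree_sum_le_of_forall_le _ _ fun n hn => ?_
    refine (natDegree_C_mul_X_pow_le _ _).trans ?_
    have := mem_range.1 hn
    omega

theorem S_surj [CharZero k] (c : k) (n : ℕ) (g : k[X]) (hg : g ∈ degreeLT k n) :
    ∃ u ∈ degreeLT k n, (X - C c) * derivative u - C (n : k) * u = g := by
  let S : k[X] →ₗ[k] k[X] :=
    LinearMap.mulLeft k (X - C c) ∘ₗ derivative - LinearMap.mulLeft k (C (n : k))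
  have hSapp : ∀ u, S u = (X - C c) * derivative u - C (n : k) * u := fun u => rfl
  have hS : ∀ u ∈ degreeLT k n, S u ∈ degreeLT k n := by
    intro u hu
    by_cases hu0 : u = 0
    · rw [hu0, map_zero]; exact zero_mem _
    have hlt := natDegree_lt_of_mem_degreeLT hu hu0
    apply mem_degreeLT_of_natDegree_lt
    rw [hSapp]
    have h1 : ((X - C c) * derivative u).natDegree ≤ u.natDegree := by
      rcases Nat.eq_zero_or_pos u.natDegree with h0 | hpos
      · rw [derivative_of_natDegree_zero h0, mul_zero, natDegree_zero]; exact Nat.zero_le _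
      · refine natDegree_mul_le.trans ?_
        rw [natDegree_X_sub_C]
        have := natDegree_derivative_le u
        omega
    exact (natDegree_sub_le_of_le h1 (natDegree_C_mul_le (n : k) u)).trans_lt
      (by rw [max_self]; exact hlt)
  let S' : degreeLT k n →ₗ[k] degreeLT k n := S.restrict hS
  have hinj : Function.Injective S' := by
    rw [← LinearMap.ker_eq_bot, LinearMap.ker_eq_bot']
    intro u hu
    by_contra hu0
    have hu0' : (u : k[X]) ≠ 0 := fun h => hu0 (Subtype.ext h)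
    have hSu : S u = 0 := congrArg Subtype.val hu
    obtain ⟨s, R, huR, hR⟩ := ord_decomp hu0' c
    have hsn : s ≤ (u : k[X]).natDegree := pow_le_natDegree hu0' (huR ▸ dvd_mul_right _ _)
    have hlt := natDegree_lt_of_mem_degreeLT u.2 hu0'
    rw [hSapp, huR, xd_pow_mul] at hSu
    have hSu' : (X - C c) ^ s * (C (s : k) * R + (X - C c) * derivative R - C (n : k) * R) = 0 := by
      rw [← hSu]; ring
    rcases mul_eq_zero.1 hSu' with h3 | h3
    · exact X_sub_C_ne_zero c (pow_eq_zero_iff'.1 h3).1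
    · have h4 := congrArg (eval c) h3
      simp only [eval_sub, eval_mul, eval_add, eval_C, eval_X, sub_self, zero_mul, add_zero,
        eval_zero, ← sub_mul] at h4
      rcases mul_eq_zero.1 h4 with h5 | h5
      · rw [sub_eq_zero] at h5
        have : s = n := by exact_mod_cast h5
        omega
      · exact hR h5
  obtain ⟨u, hu⟩ := (LinearMap.injective_iff_surjective.1 hinj) ⟨g, hg⟩
  exact ⟨u, u.2, congrArg Subtype.val hu⟩

/-- The spaces spanned by `D·k[X]_{<c}` and the `D_i·k[X]_{<a_i}`. -/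
noncomputable def Vsp (c : ℕ) : Submodule k k[X] :=
  (degreeLT k c).map (LinearMap.mulLeft k (Dp r a)) ⊔
    ⨆ i, (degreeLT k (a i)).map (LinearMap.mulLeft k (Di r a i))

theorem Vsp_le_T [CharZero k] (ha : ∀ j, 1 ≤ a j) (c : ℕ) :
    Vsp r a c ≤ (degreeLT k (c + ∑ j, a j + 1)).map (T r a) := by
  classical
  apply sup_le
  · rintro _ ⟨g, hg, rfl⟩
    by_cases hg0 : g = 0
    · rw [hg0, map_zero]; exact zero_mem _
    have hlt := natDegree_lt_of_mem_degreeLT hg hg0
    obtain ⟨G, hG, hGdeg⟩ := antideriv_exists g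
    refine ⟨G * Ep r a, mem_degreeLT_of_natDegree_lt ?_, ?_⟩
    · refine natDegree_mul_le.trans_lt ?_
      rw [natDegree_Ep]; omega
    · rw [T_GE r a ha, hG]; rfl
  · refine iSup_le fun i => ?_
    rintro _ ⟨g, hg, rfl⟩
    obtain ⟨u, hu, hug⟩ := S_surj (r i) (a i) g hg
    refine ⟨u * Ei r a i, ?_, ?_⟩
    · by_cases hu0 : u = 0
      · rw [hu0, zero_mul]; exact zero_mem _
      have hlt := natDegree_lt_of_mem_degreeLT hu hu0
      apply mem_degreeLT_of_natDegree_lt
      refine natDegree_mul_le.trans_lt ?_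
      rw [natDegree_Ei]
      have := add_sum_erase univ a (mem_univ i)
      omega
    · rw [T_uEi r a ha i, hug]; rfl

/-- Every element of `Vsp c` is `T P` for some `P` of degree `≤ c + ∑ a_j`. -/
theorem exists_T_of_mem_Vsp [CharZero k] (ha : ∀ j, 1 ≤ a j) {c : ℕ} {h : k[X]}
    (hh : h ∈ Vsp r a c) : ∃ P : k[X], P.natDegree ≤ c + ∑ j, a j ∧ T r a P = h := by
  obtain ⟨P, hP, rfl⟩ := Vsp_le_T r a ha c hh
  refine ⟨P, ?_, rfl⟩
  by_cases hP0 : P = 0
  · rw [hP0, natDegree_zero]; exact Nat.zero_le _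
  · have := natDegree_lt_of_mem_degreeLT hP hP0; omega


/-! ### The dimension of `Vsp` -/

theorem Di_eval_ne_zero (hr : Function.Injective r) (i : Fin m) : (Di r a i).eval (r i) ≠ 0 := by
  rw [Di_eq, eval_mul]
  exact mul_ne_zero (eval_Li_ne_zero r hr i) (eval_Ei_ne_zero r a hr i)

theorem pow_dvd_Dp (i : Fin m) : (X - C (r i)) ^ (a i + 1) ∣ Dp r a :=
  dvd_prod_of_mem (fun l => (X - C (r l)) ^ (a l + 1)) (mem_univ i)

theorem pow_dvd_Di {i j : Fin m} (hij : j ≠ i) : (X - C (r i)) ^ (a i + 1) ∣ Di r a j :=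
  dvd_prod_of_mem (fun l => (X - C (r l)) ^ (a l + 1)) (mem_erase.2 ⟨fun h => hij h.symm, mem_univ i⟩)

noncomputable def Psi (c : ℕ) : (degreeLT k c × ((i : Fin m) → degreeLT k (a i))) →ₗ[k] k[X] :=
  (LinearMap.mulLeft k (Dp r a) ∘ₗ (degreeLT k c).subtype).coprod
    (∑ i, LinearMap.mulLeft k (Di r a i) ∘ₗ (degreeLT k (a i)).subtype ∘ₗ LinearMap.proj i)

theorem Psi_apply (c : ℕ) (x : degreeLT k c × ((i : Fin m) → degreeLT k (a i))) :
    Psi r a c x = Dp r a * x.1 + ∑ i, Di r a i * (x.2 i : k[X]) := by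
  simp [Psi]

theorem range_Psi (c : ℕ) : LinearMap.range (Psi r a c) = Vsp r a c := by
  classical
  apply le_antisymm
  · rintro _ ⟨x, rfl⟩
    rw [Psi_apply]
    refine add_mem (Submodule.mem_sup_left ⟨x.1, x.1.2, rfl⟩)
      (sum_mem fun i _ => Submodule.mem_sup_right (Submodule.mem_iSup_of_mem i ⟨x.2 i, (x.2 i).2, rfl⟩))
  · apply sup_le
    · rintro _ ⟨g, hg, rfl⟩
      exact ⟨(⟨g, hg⟩, 0), by simp [Psi_apply]⟩
    · refine iSup_le fun i => ?_
      rintro _ ⟨g, hg, rfl⟩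
      refine ⟨(0, Pi.single i ⟨g, hg⟩), ?_⟩
      rw [Psi_apply]
      simp only [ZeroMemClass.coe_zero, mul_zero, zero_add]
      rw [sum_eq_single i]
      · simp
      · intro j _ hji
        rw [Pi.single_eq_of_ne hji]
        simp
      · simp

theorem Psi_injective (hr : Function.Injective r) (c : ℕ) : Function.Injective (Psi r a c) := by
  classical
  rw [← LinearMap.ker_eq_bot, LinearMap.ker_eq_bot']
  rintro ⟨g, f⟩ h0
  rw [Psi_apply] at h0
  simp only at h0
  have hf : ∀ i, (f i : k[X]) = 0 := by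
    intro i
    have hsplit := add_sum_erase univ (fun j => Di r a j * (f j : k[X])) (mem_univ i)
    have hdvd : (X - C (r i)) ^ (a i + 1) ∣ Di r a i * (f i : k[X]) := by
      have : Di r a i * (f i : k[X]) = -(Dp r a * g + ∑ j ∈ univ.erase i, Di r a j * (f j : k[X])) := by
        rw [← hsplit] at h0; linear_combination h0
      rw [this, dvd_neg]
      refine dvd_add (dvd_mul_of_dvd_left (pow_dvd_Dp r a i) _) (dvd_sum fun j hj => ?_)
      exact dvd_mul_of_dvd_left (pow_dvd_Di r a (mem_erase.1 hj).1) _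
    have hnd : ¬ (X - C (r i)) ∣ Di r a i := by
      rw [dvd_iff_isRoot]; exact Di_eval_ne_zero r a hr i
    have h2 := (prime_X_sub_C (r i)).pow_dvd_of_dvd_mul_left _ hnd hdvd
    by_contra hne
    have h3 := natDegree_lt_of_mem_degreeLT (f i).2 hne
    have h4 := pow_le_natDegree hne h2
    omega
  have hf' : f = 0 := funext fun i => Subtype.ext (hf i)
  simp only [hf, mul_zero, sum_const_zero, add_zero] at h0
  have hg : (g : k[X]) = 0 := (mul_eq_zero.1 h0).resolve_left (Dp_ne_zero r a)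
  rw [hf']
  have : g = 0 := Subtype.ext hg
  rw [this]; rfl

theorem Vsp_fd (c : ℕ) : FiniteDimensional k (Vsp r a c) := by
  rw [← range_Psi]; exact LinearMap.finiteDimensional_range _

theorem finrank_Vsp (hr : Function.Injective r) (c : ℕ) :
    Module.finrank k (Vsp r a c) = c + ∑ j, a j := by
  rw [← range_Psi, LinearMap.finrank_range_of_inj (Psi_injective r a hr c), Module.finrank_prod,
    Module.finrank_pi_fintype, finrank_degreeLT']
  simp only [finrank_degreeLT']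

/-- Elements of `Vsp c` decompose. -/
theorem mem_Vsp_iff {c : ℕ} {h : k[X]} : h ∈ Vsp r a c ↔
    ∃ (g : k[X]) (f : Fin m → k[X]), g ∈ degreeLT k c ∧ (∀ i, f i ∈ degreeLT k (a i)) ∧
      h = Dp r a * g + ∑ i, Di r a i * f i := by
  constructor
  · intro hh
    rw [← range_Psi] at hh
    obtain ⟨x, rfl⟩ := hh
    exact ⟨x.1, fun i => x.2 i, x.1.2, fun i => (x.2 i).2, Psi_apply r a c x⟩
  · rintro ⟨g, f, hg, hf, rfl⟩
    rw [← range_Psi]
    exact ⟨(⟨g, hg⟩, fun i => ⟨f i, hf i⟩), Psi_apply r a c _⟩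


/-! ### Filtrations and dimension counting -/

/-- The subspace of multiples of `(X - q)^n`. -/
noncomputable def Iq (q : k) (n : ℕ) : Submodule k k[X] :=
  (Ideal.span {(X - C q) ^ n}).restrictScalars k

theorem mem_Iq {q : k} {n : ℕ} {h : k[X]} : h ∈ Iq q n ↔ (X - C q) ^ n ∣ h :=
  Ideal.mem_span_singleton

theorem Iq_zero (q : k) : Iq q 0 = ⊤ := by
  ext h; simp [mem_Iq]

theorem Iq_anti (q : k) {n n' : ℕ} (h : n ≤ n') : Iq q n' ≤ Iq q n :=
  fun _ hx => mem_Iq.2 ((pow_dvd_pow _ h).trans (mem_Iq.1 hx))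

theorem dvd_iff_taylor (q : k) (n : ℕ) (h : k[X]) : (X - C q) ^ n ∣ h ↔ X ^ n ∣ taylor q h := by
  have hX : taylor q (X - C q) = X := by simp [taylor_apply]
  have hX' : taylor (-q) X = X - C q := by simp [taylor_apply, sub_eq_add_neg]
  constructor
  · rintro ⟨g, rfl⟩
    rw [taylor_mul, taylor_pow, hX]
    exact dvd_mul_right _ _
  · rintro ⟨g, hg⟩
    have : h = taylor (-q) (taylor q h) := by rw [taylor_taylor, neg_add_cancel, taylor_zero]
    rw [this, hg, taylor_mul, taylor_pow, hX']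
    exact dvd_mul_right _ _

theorem mem_Iq_succ {q : k} {n : ℕ} {h : k[X]} (h1 : h ∈ Iq q n)
    (h2 : (taylor q h).coeff n = 0) : h ∈ Iq q (n + 1) := by
  rw [mem_Iq, dvd_iff_taylor, X_pow_dvd_iff] at h1 ⊢
  intro j hj
  rcases Nat.lt_succ_iff_lt_or_eq.1 hj with hj | rfl
  · exact h1 j hj
  · exact h2

theorem mem_degreeLT_of_coeff {j : ℕ} {h : k[X]} (h1 : h ∈ degreeLT k (j + 1))
    (h2 : h.coeff j = 0) : h ∈ degreeLT k j := by
  rw [mem_degreeLT, degree_lt_iff_coeff_zero] at h1 ⊢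
  intro l hl
  rcases Nat.lt_or_eq_of_le hl with hl | rfl
  · exact h1 l hl
  · exact h2

theorem finrank_inf_le_succ (W A B : Submodule k k[X]) [FiniteDimensional k W]
    (ψ : k[X] →ₗ[k] k) (hAB : ∀ x ∈ A, ψ x = 0 → x ∈ B) :
    Module.finrank k (W ⊓ A : Submodule k k[X]) ≤ Module.finrank k (W ⊓ B : Submodule k k[X]) + 1 := by
  set U : Submodule k k[X] := W ⊓ A
  let f : U →ₗ[k] k := ψ.domRestrict U
  have h1 := LinearMap.finrank_range_add_finrank_ker f
  have h2 : Module.finrank k (LinearMap.range f) ≤ 1 := by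
    have := Submodule.finrank_le (LinearMap.range f)
    simpa using this
  have h3 : Module.finrank k (LinearMap.ker f) ≤ Module.finrank k (W ⊓ B : Submodule k k[X]) := by
    rw [← Submodule.finrank_map_subtype_eq]
    apply Submodule.finrank_mono
    rintro _ ⟨x, hx, rfl⟩
    have hx' : ψ x = 0 := hx
    exact ⟨(Submodule.mem_inf.1 x.2).1, hAB x (Submodule.mem_inf.1 x.2).2 hx'⟩
  omega

theorem finrank_Iq_step (W : Submodule k k[X]) [FiniteDimensional k W] (q : k) (n : ℕ) :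
    Module.finrank k (W ⊓ Iq q n : Submodule k k[X]) ≤
      Module.finrank k (W ⊓ Iq q (n + 1) : Submodule k k[X]) + 1 :=
  finrank_inf_le_succ W _ _ (lcoeff k n ∘ₗ taylor q) fun x hx h0 => mem_Iq_succ hx h0

theorem finrank_deg_step (W : Submodule k k[X]) [FiniteDimensional k W] (j : ℕ) :
    Module.finrank k (W ⊓ degreeLT k (j + 1) : Submodule k k[X]) ≤
      Module.finrank k (W ⊓ degreeLT k j : Submodule k k[X]) + 1 :=
  finrank_inf_le_succ W _ _ (lcoeff k j) fun x hx h0 => mem_degreeLT_of_coeff hx h0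

theorem finrank_inf_mono (W : Submodule k k[X]) [FiniteDimensional k W] {A B : Submodule k k[X]}
    (h : A ≤ B) : Module.finrank k (W ⊓ A : Submodule k k[X]) ≤ Module.finrank k (W ⊓ B : Submodule k k[X]) :=
  Submodule.finrank_mono (inf_le_inf_left W h)

/-- The degree filtration indexed by the order at infinity. -/
theorem finrank_Fd_step (W : Submodule k k[X]) [FiniteDimensional k W] (d n : ℕ) :
    Module.finrank k (W ⊓ degreeLT k (d + 1 - n) : Submodule k k[X]) ≤
      Module.finrank k (W ⊓ degreeLT k (d + 1 - (n + 1)) : Submodule k k[X]) + 1 := by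
  rcases Nat.lt_or_ge n (d + 1) with h | h
  · have := finrank_deg_step W (d + 1 - (n + 1))
    rwa [show d + 1 - (n + 1) + 1 = d + 1 - n by omega] at this
  · rw [show d + 1 - n = 0 by omega, show d + 1 - (n + 1) = 0 by omega]
    omega

theorem nat_steps (f : ℕ → ℕ) (hstep : ∀ n, f n ≤ f (n + 1) + 1) (n j : ℕ) : f n ≤ f (n + j) + j := by
  induction j with
  | zero => simp
  | succ j ih =>
    have := hstep (n + j)
    rw [show n + (j + 1) = n + j + 1 by omega]
    omega

theorem nat_fn_nogap (f : ℕ → ℕ) (N : ℕ) (hanti : Antitone f) (hstep : ∀ n, f n ≤ f (n + 1) + 1)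
    (h0 : f 0 = N) (hN : f N = 0) (n : ℕ) : f n = N - n := by
  rcases Nat.lt_or_ge n N with h | h
  · have h1 := nat_steps f hstep 0 n
    have h2 := nat_steps f hstep n (N - n)
    rw [show n + (N - n) = N by omega] at h2
    simp only [zero_add] at h1
    omega
  · have := hanti h; omega

theorem nat_fn_gap (f : ℕ → ℕ) (N e : ℕ) (he : e ≤ N) (hanti : Antitone f)
    (hstep : ∀ n, f n ≤ f (n + 1) + 1) (h0 : f 0 = N) (hgap : f e = f (e + 1)) (hN : f (N + 1) = 0)
    (n : ℕ) : f n = if n ≤ e then N - n else N + 1 - n := by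
  have key : ∀ n, n ≤ e → f n = N - n := by
    intro n hn
    have h1 := nat_steps f hstep 0 n
    have h2 := nat_steps f hstep n (e - n)
    have h3 := nat_steps f hstep (e + 1) (N - e)
    rw [show n + (e - n) = e by omega] at h2
    rw [show e + 1 + (N - e) = N + 1 by omega] at h3
    simp only [zero_add] at h1
    omega
  split_ifs with hn
  · exact key n hn
  · rcases Nat.lt_or_ge n (N + 2) with h | h
    · have h1 := nat_steps f hstep n (N + 1 - n)
      rw [show n + (N + 1 - n) = N + 1 by omega] at h1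
      have h2 := nat_steps f hstep (e + 1) (n - (e + 1))
      rw [show e + 1 + (n - (e + 1)) = n by omega] at h2
      have h3 := key e le_rfl
      omega
    · have := hanti (show N + 1 ≤ n by omega); omega


/-! ### Degree bounds and gaps for `Vsp` -/

theorem natDegree_Dp' : (Dp r a).natDegree = ∑ j, a j + m := by
  rw [natDegree_Dp, sum_add_distrib]; simp

theorem natDegree_Di' (i : Fin m) : (Di r a i).natDegree + (a i + 1) = ∑ j, a j + m := by
  rw [natDegree_Di, ← natDegree_Dp' r a, natDegree_Dp, add_comm]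
  exact add_sum_erase univ (fun j => a j + 1) (mem_univ i)

theorem Di_mul_mem (ha : ∀ j, 1 ≤ a j) (i : Fin m) {f : k[X]} (hf : f ∈ degreeLT k (a i)) :
    Di r a i * f ∈ degreeLT k (∑ j, a j + m - 1) := by
  by_cases hf0 : f = 0
  · rw [hf0, mul_zero]; exact zero_mem _
  have h1 := natDegree_lt_of_mem_degreeLT hf hf0
  have h2 := natDegree_Di' r a i
  have h3 := ha i
  apply mem_degreeLT_of_natDegree_lt
  refine natDegree_mul_le.trans_lt ?_
  omega

theorem Vsp_le_degreeLT (ha : ∀ j, 1 ≤ a j) (c : ℕ) :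
    Vsp r a c ≤ degreeLT k (c + ∑ j, a j + m) := by
  intro h hh
  obtain ⟨g, f, hg, hf, rfl⟩ := (mem_Vsp_iff r a).1 hh
  refine add_mem ?_ (sum_mem fun i _ => degreeLT_mono (by omega) (Di_mul_mem r a ha i (hf i)))
  by_cases hg0 : g = 0
  · rw [hg0, mul_zero]; exact zero_mem _
  have h1 := natDegree_lt_of_mem_degreeLT hg hg0
  apply mem_degreeLT_of_natDegree_lt
  refine natDegree_mul_le.trans_lt ?_
  rw [natDegree_Dp']
  omega

theorem gap_marked (hr : Function.Injective r) (c : ℕ) (i : Fin m) :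
    Vsp r a c ⊓ Iq (r i) (a i) ≤ Iq (r i) (a i + 1) := by
  classical
  rintro h ⟨hh, hI⟩
  obtain ⟨g, f, hg, hf, rfl⟩ := (mem_Vsp_iff r a).1 hh
  have hI' := mem_Iq.1 hI
  rw [mem_Iq]
  have hsplit := add_sum_erase univ (fun j => Di r a j * f j) (mem_univ i)
  have hrest : (X - C (r i)) ^ (a i + 1) ∣ Dp r a * g + ∑ j ∈ univ.erase i, Di r a j * f j := by
    refine dvd_add (dvd_mul_of_dvd_left (pow_dvd_Dp r a i) _) (dvd_sum fun j hj => ?_)
    exact dvd_mul_of_dvd_left (pow_dvd_Di r a (mem_erase.1 hj).1) _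
  have hfi : f i = 0 := by
    have h1 : (X - C (r i)) ^ (a i) ∣ Di r a i * f i := by
      have : Di r a i * f i = (Dp r a * g + ∑ j, Di r a j * f j)
          - (Dp r a * g + ∑ j ∈ univ.erase i, Di r a j * f j) := by
        rw [← hsplit]; ring
      rw [this]
      exact dvd_sub hI' ((pow_dvd_pow _ (Nat.le_succ _)).trans hrest)
    have hnd : ¬ (X - C (r i)) ∣ Di r a i := by
      rw [dvd_iff_isRoot]; exact Di_eval_ne_zero r a hr i
    have h2 := (prime_X_sub_C (r i)).pow_dvd_of_dvd_mul_left _ hnd h1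
    by_contra hne
    have h3 := natDegree_lt_of_mem_degreeLT (hf i) hne
    have h4 := pow_le_natDegree hne h2
    omega
  rw [← hsplit, hfi, mul_zero, zero_add]
  exact hrest

theorem gap_infty (ha : ∀ j, 1 ≤ a j) (c : ℕ) :
    Vsp r a c ⊓ degreeLT k (∑ j, a j + m) ≤ degreeLT k (∑ j, a j + m - 1) := by
  rintro h ⟨hh, hdeg⟩
  obtain ⟨g, f, hg, hf, rfl⟩ := (mem_Vsp_iff r a).1 hh
  have hS : ∑ i, Di r a i * f i ∈ degreeLT k (∑ j, a j + m - 1) :=
    sum_mem fun i _ => Di_mul_mem r a ha i (hf i)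
  by_cases hg0 : g = 0
  · rw [hg0, mul_zero, zero_add]; exact hS
  exfalso
  have hD := natDegree_Dp' r a
  have h1 : (Dp r a * g).natDegree = ∑ j, a j + m + g.natDegree := by
    rw [natDegree_mul (Dp_ne_zero r a) hg0, hD]
  have h2 : (∑ i, Di r a i * f i).natDegree < (Dp r a * g).natDegree := by
    by_cases hS0 : ∑ i, Di r a i * f i = 0
    · rw [hS0, natDegree_zero, h1]
      by_contra hcon
      have : ∑ j, a j + m = 0 := by omega
      have hm : m = 0 := by omega
      subst hm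
      simp at hS0 hdeg
      have hg' : Dp r a * g = 0 := by
        have := hdeg
        rw [mem_degreeLT] at this
        simpa using this
      exact hg0 ((mul_eq_zero.1 hg').resolve_left (Dp_ne_zero r a))
    · have := natDegree_lt_of_mem_degreeLT hS hS0
      omega
  have h3 : (Dp r a * g + ∑ i, Di r a i * f i).natDegree = (Dp r a * g).natDegree :=
    natDegree_add_eq_left_of_natDegree_lt h2
  have hne : Dp r a * g + ∑ i, Di r a i * f i ≠ 0 := by
    intro h0
    rw [h0, natDegree_zero] at h3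
    omega
  have h4 := natDegree_lt_of_mem_degreeLT hdeg hne
  omega


/-! ### Unmarked points -/

theorem mem_Vsp_Iq_unmarked [CharZero k] (ha : ∀ j, 1 ≤ a j) {q : k} (hq : ∀ j, q ≠ r j)
    {c n : ℕ} {h : k[X]} (hh : h ∈ Vsp r a c) (hI : (X - C q) ^ n ∣ h) :
    ∃ Q : k[X], T r a Q = h ∧ (X - C q) ^ (n + 1) ∣ Q ∧ Q.natDegree ≤ c + ∑ j, a j := by
  obtain ⟨P, hP, rfl⟩ := exists_T_of_mem_Vsp r a ha hh
  obtain ⟨Q, hQ, hdvd, hdeg⟩ := adjust_unmarked r a ha hq P hI
  refine ⟨Q, hQ, hdvd, hdeg.trans (max_le hP ?_)⟩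
  rw [natDegree_Ep]; omega

theorem Vsp_inf_Iq_eq_bot [CharZero k] (ha : ∀ j, 1 ≤ a j) {q : k} (hq : ∀ j, q ≠ r j)
    {c K : ℕ} (hK : c + ∑ j, a j ≤ K) : Vsp r a c ⊓ Iq q K = ⊥ := by
  rw [eq_bot_iff]
  rintro h ⟨hh, hI⟩
  obtain ⟨P, hP, rfl⟩ := exists_T_of_mem_Vsp r a ha hh
  rw [Submodule.mem_bot]
  exact T_eq_zero_of_unmarked r a ha hq (K := K) (by omega) (by rw [natDegree_Ep]; omega)
    (mem_Iq.1 hI)

theorem finrank_Vsp_Iq_unmarked [CharZero k] (ha : ∀ j, 1 ≤ a j) (hr : Function.Injective r)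
    {q : k} (hq : ∀ j, q ≠ r j) (c n : ℕ) :
    Module.finrank k (Vsp r a c ⊓ Iq q n : Submodule k k[X]) = c + ∑ j, a j - n := by
  have := Vsp_fd r a c
  refine nat_fn_nogap (fun n => Module.finrank k (Vsp r a c ⊓ Iq q n : Submodule k k[X]))
    (c + ∑ j, a j) ?_ ?_ ?_ ?_ n
  · intro n n' hnn'; exact finrank_inf_mono _ (Iq_anti _ hnn')
  · intro n; exact finrank_Iq_step _ _ _
  · rw [Iq_zero, inf_top_eq]; exact finrank_Vsp r a hr c
  · rw [Vsp_inf_Iq_eq_bot r a ha hq le_rfl, finrank_bot]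

theorem eq_C_mul_pow_of_dvd {q : k} {N : ℕ} {Q : k[X]} (h : (X - C q) ^ N ∣ Q)
    (hQ : Q.natDegree ≤ N) : ∃ α : k, Q = C α * (X - C q) ^ N := by
  obtain ⟨R, rfl⟩ := h
  by_cases hR : R = 0
  · exact ⟨0, by rw [hR]; simp⟩
  have h1 : ((X - C q) ^ N * R).natDegree = N + R.natDegree := by
    rw [natDegree_mul (pow_ne_zero _ (X_sub_C_ne_zero q)) hR, (monic_X_sub_C q).natDegree_pow,
      natDegree_X_sub_C, mul_one]
  have h2 : R.natDegree = 0 := by omega
  exact ⟨R.coeff 0, by rw [eq_C_of_natDegree_eq_zero h2, mul_comm]; simp⟩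

theorem coeff_X_sub_C_pow_top (q : k) (N : ℕ) : ((X - C q) ^ N).coeff N = 1 := by
  have := (monic_X_sub_C q).pow N
  have h2 := this.coeff_natDegree
  rwa [(monic_X_sub_C q).natDegree_pow, natDegree_X_sub_C, mul_one] at h2

theorem coeff_X_sub_C_pow_pred (q : k) {N : ℕ} (hN : 1 ≤ N) :
    ((X - C q) ^ N).coeff (N - 1) = -((N : k) * q) := by
  rw [sub_eq_add_neg, ← C_neg, coeff_X_add_C_pow, show N - (N - 1) = 1 by omega, pow_one,
    Nat.choose_symm_of_eq_add (show N = (N - 1) + 1 by omega), Nat.choose_one_right]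
  ring


/-- `Vsp c` is exactly the image under `T` of the polynomials of degree `≤ c + ∑ a_j`. -/
theorem Vsp_eq_T [CharZero k] (ha : ∀ j, 1 ≤ a j) (hr : Function.Injective r) (c : ℕ) :
    Vsp r a c = (degreeLT k (c + ∑ j, a j + 1)).map (T r a) := by
  have hfd : FiniteDimensional k ((degreeLT k (c + ∑ j, a j + 1)).map (T r a)) := by
    rw [← LinearMap.range_domRestrict]; exact LinearMap.finiteDimensional_range _
  apply Submodule.eq_of_le_of_finrank_le (Vsp_le_T r a ha c)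
  rw [finrank_Vsp r a hr, ← LinearMap.range_domRestrict]
  have h1 := LinearMap.finrank_range_add_finrank_ker ((T r a).domRestrict (degreeLT k (c + ∑ j, a j + 1)))
  rw [finrank_degreeLT'] at h1
  have h2 : 1 ≤ Module.finrank k (LinearMap.ker ((T r a).domRestrict (degreeLT k (c + ∑ j, a j + 1)))) := by
    by_contra h0
    have h3 : LinearMap.ker ((T r a).domRestrict (degreeLT k (c + ∑ j, a j + 1))) = ⊥ :=
      Submodule.finrank_eq_zero.1 (by omega)
    have hEW : Ep r a ∈ degreeLT k (c + ∑ j, a j + 1) := mem_degreeLT_of_natDegree_lt (by rw [natDegree_Ep]; omega)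
    have h4 : (⟨Ep r a, hEW⟩ : degreeLT k (c + ∑ j, a j + 1)) ∈ LinearMap.ker ((T r a).domRestrict (degreeLT k (c + ∑ j, a j + 1))) := by
      rw [LinearMap.mem_ker, LinearMap.domRestrict_apply]; exact T_E r a ha
    rw [h3, Submodule.mem_bot] at h4
    exact Ep_ne_zero r a (congrArg Subtype.val h4)
  omega

theorem eval_T_pow (q p : k) (n : ℕ) : (T r a ((X - C q) ^ n)).eval p =
    (Lp r).eval p * ((n : k) * (p - q) ^ (n - 1)) - (Mp r a).eval p * (p - q) ^ n := by
  rw [T_apply, derivative_X_sub_C_pow]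
  simp [eval_mul, eval_pow]


/-! ### Vanishing sequences of `V = Vsp b` at marked points and at infinity -/

theorem finrank_Vsp_marked [CharZero k] (ha : ∀ j, 1 ≤ a j) (hr : Function.Injective r)
    {b N : ℕ} (hN : N = ∑ j, a j + b) (i : Fin m) (n : ℕ) :
    Module.finrank k (Vsp r a b ⊓ Iq (r i) n : Submodule k k[X]) =
      if n ≤ a i then N - n else N + 1 - n := by
  have := Vsp_fd r a b
  have hfin : Module.finrank k (Vsp r a b) = N := by rw [finrank_Vsp r a hr]; omega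
  have hA : a i ≤ ∑ j, a j := Finset.single_le_sum (fun j _ => Nat.zero_le (a j)) (Finset.mem_univ i)
  have hE := natDegree_Ep r a
  refine nat_fn_gap (fun n => Module.finrank k (Vsp r a b ⊓ Iq (r i) n : Submodule k k[X])) N
    (a i) (by omega) ?_ ?_ ?_ ?_ ?_ n
  · intro n n' hnn'; exact finrank_inf_mono _ (Iq_anti _ hnn')
  · intro n; exact finrank_Iq_step _ _ _
  · rw [Iq_zero, inf_top_eq]; exact hfin
  · apply le_antisymm
    · exact Submodule.finrank_mono (le_inf inf_le_left (gap_marked r a hr b i))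
    · exact finrank_inf_mono _ (Iq_anti _ (Nat.le_succ _))
  · have : Vsp r a b ⊓ Iq (r i) (N + 1) = ⊥ := by
      rw [eq_bot_iff]; rintro h ⟨hh, hI⟩
      obtain ⟨P, hP, rfl⟩ := exists_T_of_mem_Vsp r a ha hh
      rw [Submodule.mem_bot]
      exact T_eq_zero_of_marked r a ha hr i (K := N) (by omega) (by omega) (mem_Iq.1 hI)
    rw [this, finrank_bot]

theorem Vsp_inf_infty_eq_bot [CharZero k] (ha : ∀ j, 1 ≤ a j) (c : ℕ) :
    Vsp r a c ⊓ degreeLT k (m - 1) = ⊥ := by
  rw [eq_bot_iff]; rintro h ⟨hh, hI⟩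
  obtain ⟨P, hP, rfl⟩ := exists_T_of_mem_Vsp r a ha hh
  rw [Submodule.mem_bot]
  exact T_eq_zero_of_infty r a ha (mem_degreeLT.1 hI)

theorem finrank_Vsp_infty [CharZero k] (ha : ∀ j, 1 ≤ a j) (hr : Function.Injective r)
    {b N d : ℕ} (hN : N = ∑ j, a j + b) (hd : d + 1 = ∑ j, (a j + 1) + b) (n : ℕ) :
    Module.finrank k (Vsp r a b ⊓ degreeLT k (d + 1 - n) : Submodule k k[X]) =
      if n ≤ b then N - n else N + 1 - n := by
  have := Vsp_fd r a b
  have hsum : ∑ j, (a j + 1) = ∑ j, a j + m := by rw [Finset.sum_add_distrib]; simp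
  have hfin : Module.finrank k (Vsp r a b) = N := by rw [finrank_Vsp r a hr]; omega
  refine nat_fn_gap
    (fun n => Module.finrank k (Vsp r a b ⊓ degreeLT k (d + 1 - n) : Submodule k k[X])) N b
    (by omega) ?_ ?_ ?_ ?_ ?_ n
  · intro n n' hnn'; exact finrank_inf_mono _ (degreeLT_mono (by omega))
  · intro n; exact finrank_Fd_step _ _ _
  · have h1 := Vsp_le_degreeLT r a ha b
    rw [show b + ∑ j, a j + m = d + 1 - 0 by omega] at h1
    rw [inf_eq_left.2 h1]
    exact hfin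
  · apply le_antisymm
    · apply Submodule.finrank_mono
      refine le_inf inf_le_left ?_
      have h1 := gap_infty r a ha b
      rw [show ∑ j, a j + m = d + 1 - b by omega,
        show d + 1 - b - 1 = d + 1 - (b + 1) by omega] at h1
      exact h1
    · exact finrank_inf_mono _ (degreeLT_mono (by omega))
  · rw [show d + 1 - (N + 1) = m - 1 by omega, Vsp_inf_infty_eq_bot r a ha b, finrank_bot]

/-! ### Hyperplanes and sums of dimensions -/

theorem hyper_eq (W W₁ F : Submodule k k[X]) (h1 : W₁ ≤ W) (h : W ⊓ F ≤ W₁) :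
    Module.finrank k (W ⊓ F : Submodule k k[X]) = Module.finrank k (W₁ ⊓ F : Submodule k k[X]) := by
  rw [show W ⊓ F = W₁ ⊓ F from le_antisymm (le_inf h inf_le_right) (inf_le_inf_right F h1)]

theorem hyper_succ (W W₁ F : Submodule k k[X]) [FiniteDimensional k W] (h1 : W₁ ≤ W)
    (h2 : Module.finrank k W₁ + 1 = Module.finrank k W) (h : ¬ W ⊓ F ≤ W₁) :
    Module.finrank k (W ⊓ F : Submodule k k[X]) =
      Module.finrank k (W₁ ⊓ F : Submodule k k[X]) + 1 := by
  have hfd1 : FiniteDimensional k W₁ := Submodule.finiteDimensional_of_le h1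
  have hlt : W₁ ⊓ F < W ⊓ F := by
    refine lt_of_le_of_ne (inf_le_inf_right F h1) fun heq => h ?_
    rw [← heq]; exact inf_le_left
  have h3 := Submodule.finrank_lt_finrank_of_lt hlt
  have h4 := Submodule.finrank_sup_add_finrank_inf_eq W₁ (W ⊓ F)
  have h5 : W₁ ⊓ (W ⊓ F) = W₁ ⊓ F := by
    rw [← inf_assoc, inf_of_le_left h1]
  rw [h5] at h4
  have h6 := Submodule.finrank_mono (sup_le h1 inf_le_left : W₁ ⊔ (W ⊓ F) ≤ W)
  omega

theorem sum_ind (g : ℕ → ℕ) (N o e : ℕ) (D : ℕ)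
    (h : ∀ n, 1 ≤ n → n ≤ D →
      g n + (if n ≤ o then 1 else 0) + (if n ≤ e then 1 else 0) = N + 1 - n) :
    ∑ n ∈ range D, g (n + 1) + min o D + min e D = ∑ n ∈ range D, (N - n) := by
  induction D with
  | zero => simp
  | succ D ih =>
    have h1 := ih fun n hn1 hn2 => h n hn1 (by omega)
    have h2 := h (D + 1) (by omega) le_rfl
    rw [sum_range_succ, sum_range_succ]
    split_ifs at h2 with ho he he <;> omega

theorem sumN_base : ∀ N : ℕ, ∑ n ∈ range N, (N - n) = (N + 1).choose 2 := by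
  intro N
  induction N with
  | zero => simp
  | succ N ih =>
    rw [sum_range_succ']
    simp only [Nat.add_sub_add_right, Nat.sub_zero]
    rw [ih, Nat.choose_succ_succ' (N + 1) 1, Nat.choose_one_right]
    ring

theorem sumN_ge (N : ℕ) : ∀ D, N ≤ D → ∑ n ∈ range D, (N - n) = (N + 1).choose 2 := by
  intro D hD
  induction D with
  | zero =>
    have : N = 0 := by omega
    subst this; simp
  | succ D ih =>
    rcases Nat.lt_or_ge D N with h | h
    · have : N = D + 1 := by omega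
      subst this; exact sumN_base _
    · rw [sum_range_succ, ih h, show N - D = 0 by omega, add_zero]

theorem sumN_pred (N : ℕ) (hN : 1 ≤ N) : ∑ n ∈ range (N - 1), (N - n) + 1 = (N + 1).choose 2 := by
  rw [← sumN_base N]
  conv_rhs => rw [show N = N - 1 + 1 by omega]
  rw [sum_range_succ, show N - 1 + 1 = N by omega, show N - (N - 1) = 1 by omega]

theorem choose_two_id (N : ℕ) (hN : 1 ≤ N) : (N + 1).choose 2 = (N - 1).choose 2 + 2 * N - 1 := by
  obtain ⟨t, rfl⟩ : ∃ t, N = t + 1 := ⟨N - 1, by omega⟩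
  have e1 : (t + 1 + 1).choose 2 = (t + 1).choose 1 + (t + 1).choose 2 :=
    Nat.choose_succ_succ' (t + 1) 1
  have e2 : (t + 1).choose 2 = t.choose 1 + t.choose 2 := Nat.choose_succ_succ' t 1
  rw [e1, e2, Nat.choose_one_right, Nat.choose_one_right, Nat.add_sub_cancel]
  omega


theorem sum_hyper (W W₁ : Submodule k k[X]) [FiniteDimensional k W] (h1 : W₁ ≤ W)
    (h2 : Module.finrank k W₁ + 1 = Module.finrank k W) (F : ℕ → Submodule k k[X]) (N e o D : ℕ)
    (hf : ∀ n, 1 ≤ n → Module.finrank k (W ⊓ F n : Submodule k k[X]) + (if n ≤ e then 1 else 0) =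
      N + 1 - n)
    (ho : ∀ n, 1 ≤ n → (¬ W ⊓ F n ≤ W₁ ↔ n ≤ o)) :
    ∑ n ∈ range D, Module.finrank k (W₁ ⊓ F (n + 1) : Submodule k k[X]) + min o D + min e D =
      ∑ n ∈ range D, (N - n) := by
  refine sum_ind (fun n => Module.finrank k (W₁ ⊓ F n : Submodule k k[X])) N o e D ?_
  intro n hn1 _
  have h3 := hf n hn1
  by_cases h4 : W ⊓ F n ≤ W₁
  · have h5 := hyper_eq W W₁ (F n) h1 h4
    have h6 : ¬ n ≤ o := fun h => ((ho n hn1).2 h) h4
    simp only [h6, if_false]
    omega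
  · have h5 := hyper_succ W W₁ (F n) h1 h2 h4
    have h6 : n ≤ o := (ho n hn1).1 h4
    simp only [h6, if_true]
    omega

theorem indicator_of_formula (f : ℕ → ℕ) (N e : ℕ) (he : e ≤ N)
    (hf : ∀ n, f n = if n ≤ e then N - n else N + 1 - n) (n : ℕ) :
    f n + (if n ≤ e then 1 else 0) = N + 1 - n := by
  rw [hf n]
  split_ifs with h <;> omega

theorem exists_o_high (W W₁ : Submodule k k[X]) (F : ℕ → Submodule k k[X]) (hF : Antitone F) (N : ℕ)
    (hlow : ¬ W ⊓ F (N - 1) ≤ W₁) (hhigh : W ⊓ F (N + 1) ≤ W₁) :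
    ∃ o, N - 1 ≤ o ∧ o ≤ N ∧ ∀ n, (¬ W ⊓ F n ≤ W₁ ↔ n ≤ o) := by
  by_cases hN : W ⊓ F N ≤ W₁
  · refine ⟨N - 1, le_rfl, Nat.sub_le _ _, fun n => ⟨fun h => ?_, fun h h' => ?_⟩⟩
    · by_contra hn
      exact h ((inf_le_inf_left W (hF (show N ≤ n by omega))).trans hN)
    · exact hlow ((inf_le_inf_left W (hF h)).trans h')
  · refine ⟨N, Nat.sub_le _ _, le_rfl, fun n => ⟨fun h => ?_, fun h h' => ?_⟩⟩
    · by_contra hn
      exact h ((inf_le_inf_left W (hF (show N + 1 ≤ n by omega))).trans hhigh)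
    · exact hN ((inf_le_inf_left W (hF h)).trans h')

theorem exists_o_low (W W₁ : Submodule k k[X]) (F : ℕ → Submodule k k[X]) (hF : Antitone F)
    (hhigh : W ⊓ F 2 ≤ W₁) :
    ∃ o, o ≤ 1 ∧ ∀ n, 1 ≤ n → (¬ W ⊓ F n ≤ W₁ ↔ n ≤ o) := by
  by_cases h1 : W ⊓ F 1 ≤ W₁
  · refine ⟨0, Nat.zero_le _, fun n hn => ⟨fun h => ?_, fun h => ?_⟩⟩
    · exact absurd ((inf_le_inf_left W (hF hn)).trans h1) h
    · omega
  · refine ⟨1, le_rfl, fun n hn => ⟨fun h => ?_, fun h => ?_⟩⟩
    · by_contra hn2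
      exact h ((inf_le_inf_left W (hF (show 2 ≤ n by omega))).trans hhigh)
    · rwa [show n = 1 by omega]

theorem Vsp_inf_deg_le (ha : ∀ j, 1 ≤ a j) {c c' : ℕ} (hc : c' ≤ c) :
    Vsp r a c ⊓ degreeLT k (∑ j, a j + m + c') ≤ Vsp r a c' := by
  rintro h ⟨hh, hdeg⟩
  obtain ⟨g, f, hg, hf, rfl⟩ := (mem_Vsp_iff r a).1 hh
  have hS : ∑ i, Di r a i * f i ∈ degreeLT k (∑ j, a j + m - 1) :=
    sum_mem fun i _ => Di_mul_mem r a ha i (hf i)
  refine (mem_Vsp_iff r a).2 ⟨g, f, ?_, hf, rfl⟩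
  by_cases hg0 : g = 0
  · rw [hg0]; exact zero_mem _
  have hDg : Dp r a * g ∈ degreeLT k (∑ j, a j + m + c') := by
    have : Dp r a * g = (Dp r a * g + ∑ i, Di r a i * f i) - ∑ i, Di r a i * f i := by ring
    rw [this]
    exact sub_mem hdeg (degreeLT_mono (by omega) hS)
  have h1 := natDegree_lt_of_mem_degreeLT hDg (mul_ne_zero (Dp_ne_zero r a) hg0)
  rw [natDegree_mul (Dp_ne_zero r a) hg0, natDegree_Dp'] at h1
  exact mem_degreeLT_of_natDegree_lt (by omega)

end Groth.Agent.Lib.Helper25.EffDiv
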